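import Mathlib

/-!
# The largest prime divisor of a binomial coefficient produces a carry in the last digit
-/

set_option autoImplicit false
set_option linter.unusedSimpArgs false

namespace Cfsg.Agent.NT.Carry

open Finset Nat

theorem choose_mono_half {n r k : ℕ} (h1 : r ≤ k) (h2 : k ≤ n / 2) : n.choose r ≤ n.choose k := by
  induction k, h1 using Nat.le_induction with
  | base => exact le_rfl
  | succ k _ ih => exact (ih (by omega)).trans (choose_le_succ_of_lt_half_left (by omega))

theorem choose_le_of_between {n r k : ℕ} (h1 : r ≤ k) (h2 : k + r ≤ n) :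
    n.choose r ≤ n.choose k := by
  by_cases h : k ≤ n / 2
  · exact choose_mono_half h1 h
  · rw [← choose_symm (show k ≤ n by omega)]
    exact choose_mono_half (by omega) (by omega)

theorem choose_le_pow_card {n k r : ℕ} (hkn : k ≤ n) (hn : 0 < n)
    (hmax : ∀ s : ℕ, s.Prime → s ∣ n.choose k → s ≤ r) :
    n.choose k ≤ n ^ ((range (r + 1)).filter Nat.Prime).card := by
  have h0 : n.choose k ≠ 0 := choose_ne_zero hkn
  calc n.choose k = ∏ p ∈ (n.choose k).primeFactors, p ^ (n.choose k).factorization p := by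
        conv_lhs => rw [← prod_factorization_pow_eq_self h0]
        rfl
    _ ≤ n ^ (n.choose k).primeFactors.card :=
        prod_le_pow_card _ _ _ fun p _ => pow_factorization_choose_le hn
    _ ≤ _ := Nat.pow_le_pow_right hn (card_le_card fun p hp => by
        have := mem_primeFactors.1 hp
        exact mem_filter.2 ⟨mem_range.2 (Nat.lt_succ_of_le (hmax p this.1 this.2.1)), this.1⟩)

theorem pow_mul_desc {n r : ℕ} (h : r ≤ n) (j : ℕ) :
    n ^ j * r.descFactorial j ≤ r ^ j * n.descFactorial j := by
  induction j with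
  | zero => simp
  | succ j ih =>
    rw [descFactorial_succ, descFactorial_succ, pow_succ, pow_succ]
    have : n * (r - j) ≤ r * (n - j) := by
      rw [Nat.mul_sub, Nat.mul_sub, mul_comm n r]
      exact Nat.sub_le_sub_left (Nat.mul_le_mul_right j h) _
    calc n ^ j * n * ((r - j) * r.descFactorial j)
        = n * (r - j) * (n ^ j * r.descFactorial j) := by ring
      _ ≤ r * (n - j) * (r ^ j * n.descFactorial j) := Nat.mul_le_mul this ih
      _ = _ := by ring

theorem pow_le_mul_choose {n r : ℕ} (h : r ≤ n) : n ^ r ≤ r ^ r * n.choose r := by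
  have := pow_mul_desc h r
  rw [descFactorial_self, descFactorial_eq_factorial_mul_choose, mul_left_comm, mul_comm] at this
  exact Nat.le_of_mul_le_mul_left this (factorial_pos r)

theorem card_primes_lt {r : ℕ} (hr : r.Prime) (h : 11 ≤ r) :
    2 * ((range (r + 1)).filter Nat.Prime).card < r := by
  have hodd := hr.eq_two_or_odd.resolve_left (by omega)
  have : ((range (r + 1)).filter Nat.Prime).card ≤ (Icc 1 (r / 2)).card := by
    refine card_le_card_of_injOn (fun p => if p = 2 then 4 else p / 2) (fun p hp => ?_) ?_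
    · obtain ⟨h1, h2⟩ := mem_filter.1 (mem_coe.1 hp)
      have := h2.two_le
      rw [mem_range] at h1
      simp only [coe_Icc, Set.mem_Icc]
      split_ifs <;> omega
    · intro p hp q hq e
      have h2 := (mem_filter.1 (mem_coe.1 hp)).2
      have h3 := (mem_filter.1 (mem_coe.1 hq)).2
      have n9 : ∀ s : ℕ, s.Prime → s ≠ 9 := by rintro s hs rfl; norm_num at hs
      have := n9 p h2
      have := n9 q h3
      simp only at e
      rcases h2.eq_two_or_odd with a | a <;> rcases h3.eq_two_or_odd with b | b <;>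
        split_ifs at e <;> omega
  rw [card_Icc] at this
  omega

theorem pow_card_lt {n r : ℕ} (hn : 5 ≤ n) (hr : r.Prime) (h : r * r ≤ n) :
    n ^ ((range (r + 1)).filter Nat.Prime).card < n.choose r := by
  have h2 := hr.two_le
  by_cases h11 : 11 ≤ r
  · have a := card_primes_lt hr h11
    set c := ((range (r + 1)).filter Nat.Prime).card
    have b := pow_le_mul_choose (show r ≤ n by nlinarith)
    have e : (r * r) ^ r ≤ n ^ r := Nat.pow_le_pow_left h r
    have f : n ^ r * n ^ r ≤ n ^ r * (n.choose r * n.choose r) := by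
      calc n ^ r * n ^ r ≤ (r ^ r * n.choose r) * (r ^ r * n.choose r) := Nat.mul_le_mul b b
        _ = (r * r) ^ r * (n.choose r * n.choose r) := by rw [mul_pow]; ring
        _ ≤ _ := Nat.mul_le_mul_right _ e
    have g := Nat.le_of_mul_le_mul_left f (by positivity)
    have i : n ^ c * n ^ c < n ^ r := by
      rw [← pow_add]; exact Nat.pow_lt_pow_right (by omega) (by omega)
    exact Nat.mul_self_lt_mul_self_iff.1 (i.trans_le g)
  have d := n.descFactorial_eq_factorial_mul_choose r
  have d' := n.pow_sub_le_descFactorial r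
  by_contra hc
  rw [not_lt] at hc
  have : r = 2 ∨ r = 3 ∨ r = 5 ∨ r = 7 := by
    have : r < 11 := by omega
    interval_cases r <;> first | omega | norm_num at hr
  rcases this with rfl | rfl | rfl | rfl
  · rw [show ((range (2 + 1)).filter Nat.Prime).card = 1 by decide, pow_one] at hc
    obtain ⟨m, rfl⟩ : ∃ m, n = m + 5 := ⟨n - 5, by omega⟩
    simp only [descFactorial_succ, descFactorial_zero, factorial] at d
    simp only [show m + 5 - 1 = m + 4 by omega, Nat.sub_zero, zero_add] at d
    nlinarith
  · rw [show ((range (3 + 1)).filter Nat.Prime).card = 2 by decide] at hc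
    obtain ⟨m, rfl⟩ : ∃ m, n = m + 9 := ⟨n - 9, by omega⟩
    simp only [descFactorial_succ, descFactorial_zero, factorial] at d
    simp only [show m + 9 - 1 = m + 8 by omega, show m + 9 - 2 = m + 7 by omega, Nat.sub_zero,
      zero_add] at d
    have : (m + 7) * ((m + 8) * ((m + 9) * 1)) ≤ 6 * (m + 9) ^ 2 := by rw [d]; omega
    nlinarith [Nat.zero_le (m ^ 3), Nat.zero_le (m ^ 2)]
  · rw [show ((range (5 + 1)).filter Nat.Prime).card = 3 by decide] at hc
    obtain ⟨m, rfl⟩ : ∃ m, n = m + 4 := ⟨n - 4, by omega⟩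
    rw [d, show m + 4 + 1 - 5 = m by omega, show 5 ! = 120 by rfl] at d'
    have e : (5 * (m + 4)) ^ 3 ≤ (6 * m) ^ 3 := Nat.pow_le_pow_left (by omega) 3
    have f : 21 ^ 2 ≤ m ^ 2 := Nat.pow_le_pow_left (by omega) 2
    have g : 0 < m ^ 3 := by have : 0 < m := by omega
                             positivity
    have i : 21 ^ 2 * m ^ 3 ≤ m ^ 5 := by
      rw [show m ^ 5 = m ^ 2 * m ^ 3 by ring]; exact Nat.mul_le_mul_right _ f
    rw [mul_pow, mul_pow] at e
    omega
  · rw [show ((range (7 + 1)).filter Nat.Prime).card = 4 by decide] at hc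
    obtain ⟨m, rfl⟩ : ∃ m, n = m + 6 := ⟨n - 6, by omega⟩
    rw [d, show m + 6 + 1 - 7 = m by omega, show 7 ! = 5040 by rfl] at d'
    have e : (7 * (m + 6)) ^ 4 ≤ (8 * m) ^ 4 := Nat.pow_le_pow_left (by omega) 4
    have f : 43 ^ 3 ≤ m ^ 3 := Nat.pow_le_pow_left (by omega) 3
    have g : 0 < m ^ 4 := by have : 0 < m := by omega
                             positivity
    have i : 43 ^ 3 * m ^ 4 ≤ m ^ 7 := by
      rw [show m ^ 7 = m ^ 3 * m ^ 4 by ring]; exact Nat.mul_le_mul_right _ f
    rw [mul_pow, mul_pow] at e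
    omega

/-- If `r` is the largest prime dividing `n.choose k`, then `n % r < k % r`. -/
theorem mod_lt_mod {n k r : ℕ} (hn : 5 ≤ n) (hkn : k ≤ n) (hr : r.Prime) (hd : r ∣ n.choose k)
    (hmax : ∀ s : ℕ, s.Prime → s ∣ n.choose k → s ≤ r) : n % r < k % r := by
  by_contra hc
  rw [not_lt] at hc
  have := Fact.mk hr
  have h0 := hr.pos
  have l := (Choose.choose_modEq_choose_mod_mul_choose_div_nat (n := n) (k := k) (p := r)).dvd_iff
    (dvd_refl r)
  have d := (hr.dvd_mul.1 (l.1 hd)).resolve_left fun h =>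
    (hr.coprime_iff_not_dvd.1 (hr.coprime_choose_of_lt (Nat.mod_lt n h0) hc)) h
  have k1 : k / r ≤ n / r := Nat.div_le_div_right hkn
  have k2 : k / r ≠ 0 := fun e => by
    rw [e, choose_zero_right] at d; exact hr.one_lt.ne' (Nat.dvd_one.1 d)
  have k3 : k / r ≠ n / r := fun e => by
    rw [e, choose_self] at d; exact hr.one_lt.ne' (Nat.dvd_one.1 d)
  have k4 : r ≤ n / r := by
    by_contra h
    exact (hr.coprime_iff_not_dvd.1 (hr.coprime_choose_of_lt (not_le.1 h) k1)) d
  have e1 := Nat.div_add_mod n r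
  have e2 := Nat.div_add_mod k r
  have a1 : r ≤ k := by
    have : r * 1 ≤ r * (k / r) := Nat.mul_le_mul_left r (Nat.pos_of_ne_zero k2)
    omega
  have a2 : k + r ≤ n := by
    have : r * (k / r + 1) ≤ r * (n / r) := Nat.mul_le_mul_left r (lt_of_le_of_ne k1 k3)
    rw [mul_add] at this
    omega
  have a3 : r * r ≤ n := by
    have : r * r ≤ r * (n / r) := Nat.mul_le_mul_left r k4
    omega
  have b1 := choose_le_of_between a1 a2
  have b2 := choose_le_pow_card hkn (by omega) hmax
  have b3 := pow_card_lt hn hr a3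
  omega

/-- If a proper binomial coefficient is a power of `2` then `4 ∣ n`. -/
theorem four_dvd {n k : ℕ} (hn : 5 ≤ n) (hk : 0 < k) (hkn : k < n)
    (hmax : ∀ s : ℕ, s.Prime → s ∣ n.choose k → s ≤ 2) : 4 ∣ n := by
  have b1 := choose_le_of_between (n := n) (r := 1) hk hkn
  have h0 : n.choose k ≠ 0 := choose_ne_zero hkn.le
  have e : n.choose k = 2 ^ (n.choose k).primeFactorsList.length :=
    eq_prime_pow_of_unique_prime_dvd h0 fun hs hd => le_antisymm (hmax _ hs hd) hs.two_le
  have b2 := choose_le_pow_card hkn.le (by omega) hmax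
  rw [show ((range (2 + 1)).filter Nat.Prime).card = 1 by decide, pow_one] at b2
  rw [choose_one_right] at b1
  have : n = 2 ^ (n.choose k).primeFactorsList.length := by omega
  generalize (n.choose k).primeFactorsList.length = a at this
  rw [this]
  have : 2 ≤ a := by
    by_contra h
    have : a < 2 := by omega
    interval_cases a <;> omega
  exact pow_dvd_pow 2 this

/-- A prime in `(n/2, n-3]`. -/
theorem exists_prime_small {n : ℕ} (h8 : 8 ≤ n) (h : n ≤ 16) :
    ∃ p : ℕ, p.Prime ∧ n < 2 * p ∧ p + 3 ≤ n := by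
  by_cases h1 : n ≤ 9
  · exact ⟨5, by norm_num, by omega, by omega⟩
  by_cases h2 : n ≤ 13
  · exact ⟨7, by norm_num, by omega, by omega⟩
  · exact ⟨11, by norm_num, by omega, by omega⟩

end Cfsg.Agent.NT.Carry
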